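import Cfsg.Agent.H309.SF.Nf4
import Cfsg.Agent.H309.SF.Dat5

set_option autoImplicit false
set_option maxRecDepth 100000

/-!
# The tables for `PSp_4(5)`: kernel checks (helper309)
-/

namespace Cfsg.Agent.H309.SF.T5

open Matrix

/-- entry -/
def ent (A k : Nat) : Nat := Nat.mod (Nat.div A (Nat.pow 8 k)) 8

/-- entry of the product -/
def dot (A B i j : Nat) : Nat :=
  Nat.mod (Nat.add (Nat.add (Nat.mul (ent A (Nat.mul 4 i)) (ent B j))
    (Nat.mul (ent A (Nat.add (Nat.mul 4 i) 1)) (ent B (Nat.add 4 j))))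
    (Nat.add (Nat.mul (ent A (Nat.add (Nat.mul 4 i) 2)) (ent B (Nat.add 8 j)))
    (Nat.mul (ent A (Nat.add (Nat.mul 4 i) 3)) (ent B (Nat.add 12 j))))) 5

/-- entry of the product `Aᵀ B` -/
def dotT (A B i j : Nat) : Nat :=
  Nat.mod (Nat.add (Nat.add (Nat.mul (ent A i) (ent B j))
    (Nat.mul (ent A (Nat.add 4 i)) (ent B (Nat.add 4 j))))
    (Nat.add (Nat.mul (ent A (Nat.add 8 i)) (ent B (Nat.add 8 j)))
    (Nat.mul (ent A (Nat.add 12 i)) (ent B (Nat.add 12 j))))) 5

/-- all pairs -/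
def allP (f : Nat → Nat → Bool) : Bool := [0, 1, 2, 3].all fun i => [0, 1, 2, 3].all fun j => f i j

/-- `A B = Z` -/
def chkMul (A B Z : Nat) : Bool := allP fun i j => Nat.beq (dot A B i j) (ent Z (Nat.add (Nat.mul 4 i) j))

/-- `Aᵀ B = Z` -/
def chkMulT (A B Z : Nat) : Bool := allP fun i j => Nat.beq (dotT A B i j) (ent Z (Nat.add (Nat.mul 4 i) j))

/-- entries -/
def chkE (A : Nat) (l : List Nat) : Bool :=
  allP fun i j => Nat.beq (ent A (Nat.add (Nat.mul 4 i) j)) (Nat.mod (l.getD (Nat.add (Nat.mul 4 i) j) 0) 5)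

/-- the code of the identity -/
def oneC : Nat := 1 + 8 ^ 5 + 8 ^ 10 + 8 ^ 15

/-- `X⁴ + X³ + 4 X² + X + 1 = 0` -/
def chkF (X X2 : Nat) : Bool :=
  allP fun i j => Nat.beq (Nat.mod (Nat.add (Nat.add (dot X2 X2 i j) (dot X X2 i j))
    (Nat.add (Nat.mul 4 (ent X2 (Nat.add (Nat.mul 4 i) j))) (Nat.add (ent X (Nat.add (Nat.mul 4 i) j))
      (ent oneC (Nat.add (Nat.mul 4 i) j))))) 5) 0

/-- the check of a row -/
def core (gl cl : List Nat) (row : List Nat) : Bool :=
  match row with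
  | [G, Z, X, XG, X2, Y, Y2] =>
    chkE G gl && ((chkE Z cl || chkE Z (cl.map (4 * ·))) && (chkMulT X G XG && (chkMul XG X G && (chkMul X X X2 &&
      (chkMul Y Y Y2 && (chkMul X Y Z && (chkF X X2 && chkF Y Y2)))))))
  | _ => false

/-- go through a list -/
def go (chk : Nat → List Nat → Bool) : Nat → List (List Nat) → Bool
  | _, [] => true
  | n, r :: rs => chk n r && go chk (n + 1) rs

theorem go_spec (chk : Nat → List Nat → Bool) : ∀ (l : List (List Nat)) (n : Nat), go chk n l = true →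
    ∀ k < l.length, chk (n + k) (l.getD k []) = true
  | [], _, _, k, hk => absurd hk (by simp)
  | r :: rs, n, h, k, hk => by
    simp only [go, Bool.and_eq_true] at h
    rcases k with _ | k
    · simpa using h.1
    · have := go_spec chk rs (n + 1) h.2 k (by simpa using hk)
      rw [show n + (k + 1) = n + 1 + k by ring]
      simpa using this

/-- lists of entries -/
def gl1 (b s p : Nat) : List Nat :=
  [0, 1, b, s * b + 4 * p + 1, 4, 0, 1, b, 4 * b, 4, 0, 1, 4 * (s * b + 4 * p + 1), 4 * b, 4, 0]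
/-- lists of entries -/
def cl1 (s p : Nat) : List Nat := [0, 0, 0, 4, 1, 0, 0, s, 0, 1, 0, 4 * p, 0, 0, 1, s]
/-- lists of entries -/
def gl2 (e : Nat) : List Nat := [0, 1, 0, 0, 4, 0, 0, 0, 0, 0, 0, e, 0, 0, 4 * e, 0]
/-- lists of entries -/
def cl2 (b l y : Nat) : List Nat := [0, 4, 0, 0, 1, b, 0, l ^ 3, 0, 1, l, y, 0, 0, 0, l ^ 3]
/-- lists of entries -/
def cl3 (b b' : Nat) : List Nat := [0, 4, 0, 0, 1, b, 0, 0, 0, 0, 0, 4, 0, 0, 1, b']
/-- lists of entries -/
def cl4 (b e : Nat) : List Nat := [0, 4, 0, 0, 1, b, 0, 0, 0, 0, e, 0, 0, 0, 0, e]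
/-- lists of entries -/
def cl5 : List Nat := [1, 0, 0, 0, 0, 1, 0, 0, 0, 0, 4, 0, 0, 0, 0, 4]

/-- the checks -/
def chk1 (n : Nat) (row : List Nat) : Bool :=
  Nat.beq ((1 + 4 * (n / 25) * (n / 25) + (n / 5 % 5 * (n / 25) + 4 * (n % 5) + 1)) % 5) 0 ||
    core (gl1 (n / 25) (n / 5 % 5) (n % 5)) (cl1 (n / 5 % 5) (n % 5)) row
/-- the checks -/
def chk2 (n : Nat) (row : List Nat) : Bool := core (gl2 1) (cl2 (n / 20) (n / 5 % 4 + 1) (n % 5)) row
/-- the checks -/
def chk3 (n : Nat) (row : List Nat) : Bool := core (gl2 (n % 4 + 1)) (cl3 (n / 20) (n / 4 % 5)) row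
/-- the checks -/
def chk4 (n : Nat) (row : List Nat) : Bool := core (gl2 1) (cl4 (n / 2) (3 * (n % 2) + 1)) row
/-- the checks -/
def chk5 (_ : Nat) (row : List Nat) : Bool := core (gl2 1) cl5 row

theorem len1 : tab1.length = 125 := by decide +kernel
theorem len2 : tab2.length = 100 := by decide +kernel
theorem len3 : tab3.length = 100 := by decide +kernel
theorem len4 : tab4.length = 10 := by decide +kernel
theorem len5 : tab5.length = 1 := by decide +kernel

theorem ok5 : go chk5 0 tab5 = true := by decide +kernel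
theorem ok4 : go chk4 0 tab4 = true := by decide +kernel
theorem ok2 : go chk2 0 tab2 = true := by decide +kernel
theorem ok3 : go chk3 0 tab3 = true := by decide +kernel
theorem ok1 : go chk1 0 tab1 = true := by decide +kernel

end Cfsg.Agent.H309.SF.T5
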