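import Cfsg.Agent.H309.SF.Eng5

set_option autoImplicit false
set_option maxRecDepth 100000

/-!
# The normal forms over a field with five elements (helper309)
-/

namespace Cfsg.Agent.H309.SF.T5

open Matrix

variable {F : Type*} [Field F]

/-- factorization of `C` into roots of `X⁴ + X³ + 4 X² + X + 1` preserving `Γ` -/
def Good (C Γ : Matrix (Fin 4) (Fin 4) F) : Prop :=
  ∃ X Y : Matrix (Fin 4) (Fin 4) F, Xᵀ * Γ * X = Γ ∧ X ^ 4 + X ^ 3 + 4 * X ^ 2 + X + 1 = 0 ∧
    Y ^ 4 + Y ^ 3 + 4 * Y ^ 2 + Y + 1 = 0 ∧ (C = X * Y ∨ C = -(X * Y))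

/-- the matrix of a code -/
def toM (F : Type*) [Field F] (A : ℕ) : Matrix (Fin 4) (Fin 4) F := of fun i j => (ent A (4 * i.val + j.val) : F)

/-- the matrix of a list -/
def toL (F : Type*) [Field F] (l : List ℕ) : Matrix (Fin 4) (Fin 4) F :=
  of fun i j => ((l.getD (4 * i.val + j.val) 0 : ℕ) : F)

theorem cast_mod (h5p : (5 : F) = 0) (n : ℕ) : ((Nat.mod n 5 : ℕ) : F) = n := by
  show ((n % 5 : ℕ) : F) = n
  conv_rhs => rw [← Nat.div_add_mod n 5]
  push_cast
  rw [h5p]; ring

theorem allP_iff (f : ℕ → ℕ → Bool) : allP f = true ↔ ∀ i j : Fin 4, f i.val j.val = true := by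
  constructor
  · intro h i j
    simp only [allP, List.all_cons, List.all_nil, Bool.and_true, Bool.and_eq_true] at h
    fin_cases i <;> fin_cases j <;> simp_all
  · intro h
    simp only [allP, List.all_cons, List.all_nil, Bool.and_true, Bool.and_eq_true]
    exact ⟨⟨h 0 0, h 0 1, h 0 2, h 0 3⟩, ⟨h 1 0, h 1 1, h 1 2, h 1 3⟩, ⟨h 2 0, h 2 1, h 2 2, h 2 3⟩,
      ⟨h 3 0, h 3 1, h 3 2, h 3 3⟩⟩

theorem chkMul_spec (h5p : (5 : F) = 0) {A B Z : ℕ} (h : chkMul A B Z = true) : toM F A * toM F B = toM F Z := by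
  rw [chkMul, allP_iff] at h
  ext i j
  have h1 := Nat.eq_of_beq_eq_true (h i j)
  rw [Matrix.mul_apply, Fin.sum_univ_four]
  simp only [toM, of_apply]
  have h2 : ((ent Z (4 * i.val + j.val) : ℕ) : F) = ((dot A B i.val j.val : ℕ) : F) := by
    rw [h1]; rfl
  rw [h2, dot, cast_mod h5p]
  simp only [Nat.add_eq, Nat.mul_eq, Nat.cast_add, Nat.cast_mul]
  simp
  ring

theorem chkMulT_spec (h5p : (5 : F) = 0) {A B Z : ℕ} (h : chkMulT A B Z = true) : (toM F A)ᵀ * toM F B = toM F Z := by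
  rw [chkMulT, allP_iff] at h
  ext i j
  have h1 := Nat.eq_of_beq_eq_true (h i j)
  rw [Matrix.mul_apply, Fin.sum_univ_four]
  simp only [toM, of_apply, transpose_apply]
  have h2 : ((ent Z (4 * i.val + j.val) : ℕ) : F) = ((dotT A B i.val j.val : ℕ) : F) := by
    rw [h1]; rfl
  rw [h2, dotT, cast_mod h5p]
  simp only [Nat.add_eq, Nat.mul_eq, Nat.cast_add, Nat.cast_mul]
  simp
  ring

theorem chkE_spec (h5p : (5 : F) = 0) {A : ℕ} {l : List ℕ} (h : chkE A l = true) : toM F A = toL F l := by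
  rw [chkE, allP_iff] at h
  ext i j
  have h1 := Nat.eq_of_beq_eq_true (h i j)
  simp only [toM, toL, of_apply]
  have h2 : ((ent A (4 * i.val + j.val) : ℕ) : F) = ((Nat.mod (l.getD (4 * i.val + j.val) 0) 5 : ℕ) : F) := by
    rw [← show ent A (Nat.add (Nat.mul 4 i.val) j.val) = ent A (4 * i.val + j.val) from rfl, h1]; rfl
  rw [h2, cast_mod h5p]

theorem toM_one (h5p : (5 : F) = 0) : toM F oneC = 1 := by
  rw [chkE_spec h5p (l := [1, 0, 0, 0, 0, 1, 0, 0, 0, 0, 1, 0, 0, 0, 0, 1]) (by decide +kernel)]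
  ext i j
  fin_cases i <;> fin_cases j <;> simp [toL]

theorem four_eq (h5p : (5 : F) = 0) : (4 : F) = -1 := by linear_combination h5p

theorem toM_neg (h5p : (5 : F) = 0) : toM F (4 * oneC) = -1 := by
  rw [chkE_spec h5p (l := [4, 0, 0, 0, 0, 4, 0, 0, 0, 0, 4, 0, 0, 0, 0, 4]) (by decide +kernel)]
  ext i j
  fin_cases i <;> fin_cases j <;> simp [toL, four_eq h5p]

theorem chkF_spec (h5p : (5 : F) = 0) {X X2 : ℕ} (h2 : toM F X * toM F X = toM F X2) (h : chkF X X2 = true) :
    toM F X ^ 4 + toM F X ^ 3 + 4 * toM F X ^ 2 + toM F X + 1 = 0 := by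
  have e2 : toM F X ^ 2 = toM F X2 := by rw [pow_two, h2]
  have e3 : toM F X ^ 3 = toM F X * toM F X2 := by rw [pow_succ', e2]
  have e4 : toM F X ^ 4 = toM F X2 * toM F X2 := by rw [← e2, ← pow_add]
  have e5 : (4 : Matrix (Fin 4) (Fin 4) F) * toM F X2 = (4 : F) • toM F X2 := by
    rw [show (4 : Matrix (Fin 4) (Fin 4) F) = (4 : F) • (1 : Matrix (Fin 4) (Fin 4) F) by
      rw [← Algebra.algebraMap_eq_smul_one, map_ofNat], smul_mul_assoc, Matrix.one_mul]
  rw [e4, e3, e2, e5, ← toM_one h5p]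
  rw [chkF, allP_iff] at h
  ext i j
  have h1 := Nat.eq_of_beq_eq_true (h i j)
  have h3 := congrArg (fun n : ℕ => (n : F)) h1
  simp only [cast_mod h5p, Nat.add_eq, Nat.mul_eq, dot] at h3
  simp only [Nat.cast_add, cast_mod h5p, Nat.cast_mul] at h3
  rw [Matrix.add_apply, Matrix.add_apply, Matrix.add_apply, Matrix.add_apply, Matrix.smul_apply, Matrix.mul_apply,
    Matrix.mul_apply, Fin.sum_univ_four, Fin.sum_univ_four, Matrix.zero_apply]
  simp only [toM, of_apply, smul_eq_mul]
  simp at h3 ⊢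
  linear_combination h3

theorem toL_neg (h5p : (5 : F) = 0) {l : List ℕ} : toL F (l.map (4 * ·)) = -toL F l := by
  ext i j
  simp only [toL, of_apply, Matrix.neg_apply]
  rw [List.getD_eq_getElem?_getD, List.getD_eq_getElem?_getD, List.getElem?_map]
  rcases l[4 * i.val + j.val]? with _ | a
  · simp
  · simp [four_eq h5p]

theorem core_spec [CharP F 5] {gl cl row : List ℕ} (h : core gl cl row = true) : Good (toL F cl) (toL F gl) := by
  have h5p : (5 : F) = 0 := by exact_mod_cast CharP.cast_eq_zero F 5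
  unfold core at h
  split at h
  · next G Z X XG X2 Y Y2 =>
    simp only [Bool.and_eq_true, Bool.or_eq_true] at h
    obtain ⟨hG, hC, h1, h2, h3, h4, h5, hX, hY⟩ := h
    have eG := chkE_spec h5p hG
    have e1 := chkMulT_spec h5p h1
    have e2 := chkMul_spec h5p h2
    have e3 := chkMul_spec h5p h3
    have e4 := chkMul_spec h5p h4
    have e5 := chkMul_spec h5p h5
    rw [← eG]
    refine ⟨toM F X, toM F Y, by rw [e1, e2], chkF_spec h5p e3 hX, chkF_spec h5p e4 hY, ?_⟩
    rw [e5]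
    rcases hC with hC | hC
    · left; rw [← chkE_spec h5p hC]
    · right; rw [chkE_spec h5p hC, toL_neg h5p, neg_neg]
  · exact absurd h (by simp)

/-- every element is a natural number below five -/
theorem exists_nat [Finite F] (hF : Nat.card F = 5) (x : F) : ∃ n : ℕ, n < 5 ∧ x = (n : F) := by
  have : Fintype F := Fintype.ofFinite F
  have hc : Fintype.card F = 5 := by rw [← Nat.card_eq_fintype_card, hF]
  have : Fact (Nat.Prime 5) := ⟨by norm_num⟩
  have : CharP F 5 := charP_of_card_eq_prime hc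
  have hinj : Function.Injective (fun n : Fin 5 => ((n : ℕ) : F)) := by
    intro a b hab
    have h1 := (CharP.natCast_injOn_Iio F 5) (by simpa using a.2) (by simpa using b.2) hab
    exact Fin.ext h1
  have hbij := (Fintype.bijective_iff_injective_and_card (fun n : Fin 5 => ((n : ℕ) : F))).2 ⟨hinj, by simp [hc]⟩
  obtain ⟨n, hn⟩ := hbij.2 x
  exact ⟨n, n.2, hn.symm⟩

theorem good_of_NF [Finite F] (hF : Nat.card F = 5) {C Γ : Matrix (Fin 4) (Fin 4) F} (h : NF C Γ) : Good C Γ := by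
  have : Fintype F := Fintype.ofFinite F
  have hc : Fintype.card F = 5 := by rw [← Nat.card_eq_fintype_card, hF]
  have : Fact (Nat.Prime 5) := ⟨by norm_num⟩
  have hchar : CharP F 5 := charP_of_card_eq_prime hc
  have h5p : (5 : F) = 0 := by exact_mod_cast CharP.cast_eq_zero F 5
  have h4p := four_eq h5p
  rcases h with ⟨b, s, p, a, ha, hP, rfl, rfl⟩ | ⟨β, l, l', y, hl, rfl, rfl⟩ | ⟨β, β', ε, hε, rfl, rfl⟩ |
    ⟨β, ε, hε, rfl, rfl⟩ | ⟨rfl, rfl⟩
  · obtain ⟨nb, hnb, rfl⟩ := exists_nat hF b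
    obtain ⟨ns, hns, rfl⟩ := exists_nat hF s
    obtain ⟨np, hnp, rfl⟩ := exists_nat hF p
    have h1 := go_spec chk1 tab1 0 ok1 (nb * 25 + ns * 5 + np) (by rw [len1]; omega)
    rw [zero_add, chk1, Bool.or_eq_true, show (nb * 25 + ns * 5 + np) / 25 = nb by omega,
      show (nb * 25 + ns * 5 + np) / 5 % 5 = ns by omega, show (nb * 25 + ns * 5 + np) % 5 = np by omega] at h1
    rcases h1 with h1 | h1
    · exfalso
      apply hP
      have h2 := Nat.eq_of_beq_eq_true h1
      have h4 : (((1 + 4 * nb * nb + (ns * nb + 4 * np + 1)) % 5 : ℕ) : F) =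
        ((1 + 4 * nb * nb + (ns * nb + 4 * np + 1) : ℕ) : F) := cast_mod h5p _
      have h5 : ((1 + 4 * nb * nb + (ns * nb + 4 * np + 1) : ℕ) : F) = 0 := by
        rw [← h4, h2, Nat.cast_zero]
      push_cast at h5
      rw [ha]
      linear_combination h5 - ((nb : F) * nb + np) * h5p
    · have h2 := core_spec (F := F) h1
      convert h2 using 1
      · ext i j
        fin_cases i <;> fin_cases j <;> simp [toL, cl1, h4p]
      · ext i j
        fin_cases i <;> fin_cases j <;> simp [toL, gl1, T1, h4p, ha] <;> ring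
  · obtain ⟨nb, hnb, rfl⟩ := exists_nat hF β
    obtain ⟨nl, hnl, rfl⟩ := exists_nat hF l
    obtain ⟨ny, hny, rfl⟩ := exists_nat hF y
    have hl0 : (nl : F) ≠ 0 := left_ne_zero_of_mul (by rw [hl]; exact one_ne_zero)
    have hnl0 : nl ≠ 0 := by
      rintro rfl
      exact hl0 Nat.cast_zero
    have hl' : l' = ((nl ^ 3 : ℕ) : F) := by
      have h1 : (nl : F) ^ (Fintype.card F - 1) = 1 := FiniteField.pow_card_sub_one_eq_one _ hl0
      rw [hc] at h1
      apply mul_left_cancel₀ hl0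
      rw [hl]
      push_cast
      rw [← h1]
      ring
    have h1 := go_spec chk2 tab2 0 ok2 (nb * 20 + (nl - 1) * 5 + ny) (by rw [len2]; omega)
    rw [zero_add, chk2, show (nb * 20 + (nl - 1) * 5 + ny) / 20 = nb by omega,
      show (nb * 20 + (nl - 1) * 5 + ny) / 5 % 4 + 1 = nl by omega,
      show (nb * 20 + (nl - 1) * 5 + ny) % 5 = ny by omega] at h1
    have h2 := core_spec (F := F) h1
    convert h2 using 1
    · ext i j
      fin_cases i <;> fin_cases j <;> simp [toL, cl2, h4p, hl']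
    · ext i j
      fin_cases i <;> fin_cases j <;> simp [toL, gl2, H2, h4p]
  · obtain ⟨nb, hnb, rfl⟩ := exists_nat hF β
    obtain ⟨nb', hnb', rfl⟩ := exists_nat hF β'
    obtain ⟨ne, hne, rfl⟩ := exists_nat hF ε
    have hne0 : ne ≠ 0 := by
      rintro rfl
      exact hε Nat.cast_zero
    have h1 := go_spec chk3 tab3 0 ok3 (nb * 20 + nb' * 4 + (ne - 1)) (by rw [len3]; omega)
    rw [zero_add, chk3, show (nb * 20 + nb' * 4 + (ne - 1)) / 20 = nb by omega,
      show (nb * 20 + nb' * 4 + (ne - 1)) / 4 % 5 = nb' by omega,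
      show (nb * 20 + nb' * 4 + (ne - 1)) % 4 + 1 = ne by omega] at h1
    have h2 := core_spec (F := F) h1
    convert h2 using 1
    · ext i j
      fin_cases i <;> fin_cases j <;> simp [toL, cl3, h4p]
    · ext i j
      fin_cases i <;> fin_cases j <;> simp [toL, gl2, H2, h4p]
  · obtain ⟨nb, hnb, rfl⟩ := exists_nat hF β
    rcases hε with rfl | rfl
    · have h1 := go_spec chk4 tab4 0 ok4 (nb * 2) (by rw [len4]; omega)
      rw [zero_add, chk4, show nb * 2 / 2 = nb by omega, show nb * 2 % 2 = 0 by omega] at h1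
      have h2 := core_spec (F := F) h1
      convert h2 using 1
      · ext i j
        fin_cases i <;> fin_cases j <;> simp [toL, cl4, h4p]
      · ext i j
        fin_cases i <;> fin_cases j <;> simp [toL, gl2, H2, h4p]
    · have h1 := go_spec chk4 tab4 0 ok4 (nb * 2 + 1) (by rw [len4]; omega)
      rw [zero_add, chk4, show (nb * 2 + 1) / 2 = nb by omega, show (nb * 2 + 1) % 2 = 1 by omega] at h1
      have h2 := core_spec (F := F) h1
      convert h2 using 1
      · ext i j
        fin_cases i <;> fin_cases j <;> simp [toL, cl4, h4p]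
      · ext i j
        fin_cases i <;> fin_cases j <;> simp [toL, gl2, H2, h4p]
  · have h1 := go_spec chk5 tab5 0 ok5 0 (by rw [len5]; omega)
    rw [chk5] at h1
    have h2 := core_spec (F := F) h1
    convert h2 using 1
    · ext i j
      fin_cases i <;> fin_cases j <;> simp [toL, cl5, h4p]
    · ext i j
      fin_cases i <;> fin_cases j <;> simp [toL, gl2, H2, h4p]

end Cfsg.Agent.H309.SF.T5
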