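import Cfsg.Agent.H309.SF.Good5
import Cfsg.Agent.H309.SF.Row7
import Cfsg.Agent.H812.TC.SpFour

set_option autoImplicit false

/-!
# S2464: `PSp_4(5)` (helper309)
-/

namespace Cfsg.Agent.H309.SF

open Matrix Polynomial

variable {F : Type} [Field F] [Fintype F]

/-- the polynomial `X⁴ + X³ + 4 X² + X + 1` -/
noncomputable def f5 (F : Type) [Field F] : F[X] := X ^ 4 + X ^ 3 + 4 * X ^ 2 + X + 1

theorem f5_eq (F : Type) [Field F] : f5 F = X ^ 4 + (X ^ 3 + C 4 * X ^ 2 + X + 1) := by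
  rw [f5, map_ofNat]; ring

theorem f5_deg (F : Type) [Field F] : (X ^ 3 + C 4 * X ^ 2 + X + 1 : F[X]).degree < ((4 : ℕ) : WithBot ℕ) := by
  have : (X ^ 3 + C 4 * X ^ 2 + X + 1 : F[X]).degree ≤ ((3 : ℕ) : WithBot ℕ) := by
    compute_degree!
  exact lt_of_le_of_lt this (by norm_num)

theorem f5_monic (F : Type) [Field F] : (f5 F).Monic := by
  rw [f5_eq]
  exact monic_X_pow_add (f5_deg F)

theorem f5_natDegree (F : Type) [Field F] : (f5 F).natDegree = 4 := by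
  rw [f5_eq]
  exact natDegree_eq_of_degree_eq_some (by rw [degree_add_eq_left_of_degree_lt (by rw [degree_X_pow]; exact f5_deg F), degree_X_pow])

theorem pow_thirteen {R : Type*} [Ring R] (h5 : (5 : R) = 0) {M : R}
    (hM : M ^ 4 + M ^ 3 + 4 * M ^ 2 + M + 1 = 0) : M ^ 13 = 1 := by
  have e : (X ^ 13 - 1 : ℤ[X]) = (X ^ 4 + X ^ 3 + 4 * X ^ 2 + X + 1) * (X ^ 9 - X ^ 8 + 2 * X ^ 7 + X ^ 6 + X ^ 5 -
      X ^ 4 - X ^ 3 - 2 * X ^ 2 + X - 1) + 5 * (-X ^ 11 - 2 * X ^ 9 - X ^ 8 - X ^ 7 + X ^ 6 + X ^ 5 + 2 * X ^ 4 +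
      X ^ 2) := by ring
  have e2 := congrArg (aeval M) e
  rw [map_add (aeval M), map_mul (aeval M), map_mul (aeval M) 5, map_ofNat, h5, zero_mul, add_zero] at e2
  have e3 : aeval M (X ^ 4 + X ^ 3 + 4 * X ^ 2 + X + 1 : ℤ[X]) = 0 := by
    simp only [map_add, map_mul, map_pow, aeval_X, map_one, map_ofNat]
    exact hM
  rw [e3, zero_mul, map_sub, map_pow, aeval_X, map_one] at e2
  exact sub_eq_zero.1 e2

theorem one_ne {R : Type*} [Ring R] [Nontrivial R] (h5 : (5 : R) = 0)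
    (hM : (1 : R) ^ 4 + 1 ^ 3 + 4 * 1 ^ 2 + 1 + 1 = 0) : False := by
  have h : (1 : R) = 2 * (1 ^ 4 + 1 ^ 3 + 4 * 1 ^ 2 + 1 + 1) - 3 * 5 := by norm_num
  rw [hM, h5, mul_zero, mul_zero, sub_zero] at h
  exact one_ne_zero h

theorem charpoly_f5 (h4 : orderOf ((Fintype.card F : ℕ) : ZMod 13) = 4) (h5 : (5 : F) = 0) {M : Matrix Ix Ix F}
    (hM : M ^ 4 + M ^ 3 + 4 * M ^ 2 + M + 1 = 0) : M ^ 13 = 1 ∧ M ≠ 1 ∧ M.charpoly = f5 F := by
  have h5' : (5 : Matrix Ix Ix F) = 0 := by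
    have := congrArg (algebraMap F (Matrix Ix Ix F)) h5
    rwa [map_ofNat, map_zero] at this
  have h13 := pow_thirteen h5' hM
  have h1 : M ≠ 1 := by
    rintro rfl
    exact one_ne h5' hM
  refine ⟨h13, h1, ?_⟩
  have hirr := H812.TC.SpF.irr_charpoly (by norm_num) h4 (by simp) h13 h1
  have hmp := minpoly.eq_of_irreducible_of_monic hirr M.aeval_self_charpoly M.charpoly_monic
  have hdeg : M.charpoly.natDegree = 4 := by rw [M.charpoly_natDegree_eq_dim]; simp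
  refine (eq_of_monic_of_dvd_of_natDegree_le M.charpoly_monic (f5_monic F) ?_ (by rw [f5_natDegree, hdeg])).symm
  rw [hmp]
  apply minpoly.dvd
  simp only [f5, map_add, map_mul, map_pow, aeval_X, map_one, map_ofNat]
  exact hM

theorem conj_f5 {F : Type*} [Field F] {w : Fin 4 → Ix → F} {X : Matrix (Fin 4) (Fin 4) F} {N : Matrix (Fin 4) Ix F}
    (h1 : N * mat w = 1) (hX : X ^ 4 + X ^ 3 + 4 * X ^ 2 + X + 1 = 0) :
    (mat w * X * N) ^ 4 + (mat w * X * N) ^ 3 + 4 * (mat w * X * N) ^ 2 + (mat w * X * N) + 1 = 0 := by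
  have h2 : mat w * N = 1 := (Matrix.mul_eq_one_comm_of_card_eq _ _ _ (by simp)).1 h1
  rw [pow_conj h1 3, pow_conj h1 2, pow_conj h1 1]
  have e : mat w * X ^ 4 * N + mat w * X ^ 3 * N + 4 * (mat w * X ^ 2 * N) + mat w * X * N + 1 =
      mat w * (X ^ 4 + X ^ 3 + 4 * X ^ 2 + X + 1) * N := by
    have e4 : (4 : Matrix Ix Ix F) = (4 : F) • 1 := by rw [← Algebra.algebraMap_eq_smul_one, map_ofNat]
    have e5 : (4 : Matrix (Fin 4) (Fin 4) F) = (4 : F) • 1 := by rw [← Algebra.algebraMap_eq_smul_one, map_ofNat]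
    rw [e4, e5, smul_mul_assoc, smul_mul_assoc, Matrix.one_mul, Matrix.one_mul]
    simp only [Matrix.mul_add, Matrix.add_mul, Matrix.mul_smul, Matrix.smul_mul, Matrix.mul_one, h2]
  rw [e, hX, Matrix.mul_zero, Matrix.zero_mul]

/-- **`PSp_4(5)`** -/
theorem row3_psp_two_five (hF : Fintype.card F = 5) : H210.TC.Row3 (PSp 2 F) := by
  obtain ⟨r, hr, hr5, h4, x, hx⟩ := H812.TC.SpF.exists_elt (F := F) (by omega)
  have hr' : r = 13 := by
    have h1 : (((5 : ℕ) : ZMod r)) ^ 4 = 1 := by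
      rw [← hF, ← h4]
      exact pow_orderOf_eq_one _
    have h2 : ((624 : ℕ) : ZMod r) = 0 := by
      have h3 : ((5 ^ 4 : ℕ) : ZMod r) = 1 := by exact_mod_cast h1
      have h6 : ((624 + 1 : ℕ) : ZMod r) = 1 := by
        rw [show 624 + 1 = 5 ^ 4 by norm_num]; exact h3
      rw [Nat.cast_add, Nat.cast_one] at h6
      exact left_eq_add.1 (by rw [add_comm] at h6; exact h6.symm)
    have h3 : r ∣ 624 := (ZMod.natCast_eq_zero_iff _ _).1 h2
    have h6 : r ∣ 2 ^ 4 * 3 * 13 := by norm_num; exact h3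
    rcases (hr.dvd_mul).1 h6 with h7 | h7
    · rcases (hr.dvd_mul).1 h7 with h8 | h8
      · have := Nat.le_of_dvd (by norm_num) (hr.dvd_of_dvd_pow h8); omega
      · have := Nat.le_of_dvd (by norm_num) h8; omega
    · exact (Nat.prime_dvd_prime_iff_eq hr (by norm_num)).1 h7
  subst hr'
  have hchar : Nat.card F = 5 := by rw [Nat.card_eq_fintype_card, hF]
  have : Fact (Nat.Prime 5) := ⟨by norm_num⟩
  have : CharP F 5 := charP_of_card_eq_prime hF
  have h5 : (5 : F) = 0 := by exact_mod_cast CharP.cast_eq_zero F 5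
  have h2 : (2 : F) ≠ 0 := by
    intro h
    have := (CharP.cast_eq_zero_iff F 5 2).1 (by exact_mod_cast h)
    omega
  have key : ∀ g : symplecticGroup (Fin 2) F, g.1 ≠ 1 → g.1 ≠ -1 → ∃ A B : symplecticGroup (Fin 2) F,
      (A.1 * B.1 = g.1 ∨ A.1 * B.1 = -g.1) ∧ (A.1 ^ 4 + A.1 ^ 3 + 4 * A.1 ^ 2 + A.1 + 1 = 0) ∧
        (B.1 ^ 4 + B.1 ^ 3 + 4 * B.1 ^ 2 + B.1 + 1 = 0) := fun g hg1 hgm => by
    obtain ⟨w, a, C, Γ, G', ha, hnf, hgram, hgm, hG'⟩ := nf h2 (SymplecticGroup.mem_iff'.1 g.2) hg1 hgm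
    obtain ⟨X, Y, hX, hXf, hYf, hC⟩ := T5.good_of_NF hchar hnf
    obtain ⟨A, B, N, hAB, hN, hA, hB⟩ := fac_of ha hgram hgm hG' hX hC
    exact ⟨A, B, hAB, by rw [hA]; exact conj_f5 hN hXf, by rw [hB]; exact conj_f5 hN hYf⟩
  have hx1 : x.1 ≠ 1 := by
    intro h
    have h1 : x = 1 := Subtype.ext h
    rw [h1, orderOf_one] at hx
    omega
  have hxm : x.1 ≠ -1 := by
    intro h
    have h1 : x ^ 2 = 1 := by
      apply Subtype.ext
      rw [SubmonoidClass.coe_pow, h, neg_sq, one_pow]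
      rfl
    have h3 := orderOf_dvd_of_pow_eq_one h1
    rw [hx] at h3
    exact absurd (Nat.le_of_dvd (by norm_num) h3) (by norm_num)
  obtain ⟨z, -, -, hz, -⟩ := key x hx1 hxm
  obtain ⟨hz13, hz1, hzc⟩ := charpoly_f5 (by rwa [hF] at h4 ⊢) h5 hz
  have hzo : orderOf z = 13 := by
    have : Fact (Nat.Prime 13) := ⟨by norm_num⟩
    refine orderOf_eq_prime ?_ fun h => hz1 (by rw [h]; rfl)
    apply Subtype.ext
    rw [SubmonoidClass.coe_pow, hz13]
    rfl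
  refine H812.TC.SpF.row3_sign (by norm_num) hr5 h4 hzo fun g hg => ?_
  have hg1 : g.1 ≠ 1 := fun h => hg (by
    rw [show g = 1 from Subtype.ext h]
    exact one_mem _)
  have hgm : g.1 ≠ -1 := fun h => hg (by
    rw [Subgroup.mem_center_iff]
    intro y
    apply Subtype.ext
    rw [Submonoid.coe_mul, Submonoid.coe_mul, h, Matrix.mul_neg, Matrix.neg_mul, Matrix.mul_one, Matrix.one_mul])
  obtain ⟨A, B, hAB, hA, hB⟩ := key g hg1 hgm
  exact ⟨A, B, hAB, by rw [hzc]; exact (charpoly_f5 h4 h5 hA).2.2, by rw [hzc]; exact (charpoly_f5 h4 h5 hB).2.2⟩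

end Cfsg.Agent.H309.SF
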